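import Cfsg.Agent.H884.ElIrr
import Cfsg.Agent.H392.UG.Base
import Cfsg.Agent.H922.OddBase

/-!
# Powers of primitive primes and the stabilisers of decompositions and field structures (helper856)

* `card_norm_dvd` : the normaliser of a field of full degree `n` has order dividing `n (q^n - 1)`;
* `decomp_dvd` : a group permuting `t` lines: a prime power `r^a` with `r ∤ q - 1` dividing the order divides `t!`.
-/

set_option autoImplicit false
set_option linter.unusedSectionVars false

namespace Cfsg.Agent.H856.Om7

open Module QuadraticMap Cfsg.Geo Matrix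
open scoped MatrixGroups

universe u

variable {ι : Type} [Fintype ι] [DecidableEq ι] {F : Type u} [Field F] [Fintype F]

/-- the normaliser of a field of full degree -/
theorem card_norm_dvd [Nonempty ι] {K : Subalgebra F (Matrix ι ι F)} (hK : IsFieldSubalgebra (Fintype.card ι) K) :
    Nat.card (subalgebraNormalizer K) ∣ Fintype.card ι * (Nat.card F ^ Fintype.card ι - 1) := by
  classical
  have hfin : Finite (GL ι F) := inferInstance
  have hN : H912.NormAlg (subalgebraNormalizer K) K := fun _ hh a ha => (hh a).mp ha
  let _ : Field K := (H912.isField_of_fieldSub hK).toField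
  have hfd : Module.Finite F K := inferInstance
  have hKfin : Finite K := Module.finite_of_finite F
  have hgal : IsGalois F K := inferInstance
  let φ : subalgebraNormalizer K →* (K ≃ₐ[F] K) :=
    { toFun := fun h => H912.conjSub hN h
      map_one' := by
        apply AlgEquiv.ext
        intro x
        apply Subtype.ext
        rw [H912.conjSub_coe]
        simp
      map_mul' := fun a b => by
        apply AlgEquiv.ext
        intro x
        apply Subtype.ext
        rw [AlgEquiv.mul_apply, H912.conjSub_coe, H912.conjSub_coe, H912.conjSub_coe, Subgroup.coe_mul,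
          _root_.mul_inv_rev, Units.val_mul, Units.val_mul]
        simp only [Matrix.mul_assoc] }
  have hmem : ∀ g : φ.ker, (((g : subalgebraNormalizer K) : GL ι F) : Matrix ι ι F) ∈ K := by
    intro g
    apply H922.mem_of_commute hK Fintype.card_pos
    intro k hk
    have h1 : (H912.conjSub hN (g : subalgebraNormalizer K)) = 1 := g.2
    have h2 := H912.conjSub_coe hN (g : subalgebraNormalizer K) ⟨k, hk⟩
    rw [h1] at h2
    change k = _ at h2
    conv_rhs => rw [h2]
    rw [Matrix.mul_assoc, ← Units.val_mul, inv_mul_cancel, Units.val_one, Matrix.mul_one]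
  have hker : Nat.card φ.ker ∣ Nat.card F ^ Fintype.card ι - 1 := by
    let ψ : φ.ker →* Kˣ :=
      { toFun := fun g => ⟨⟨_, hmem g⟩, ⟨_, hmem g⁻¹⟩, by
          apply Subtype.ext
          show (((g : subalgebraNormalizer K) : GL ι F) : Matrix ι ι F) *
            (((g⁻¹ : φ.ker) : subalgebraNormalizer K) : GL ι F) = 1
          rw [← Units.val_mul, ← Subgroup.coe_mul, ← Subgroup.coe_mul, mul_inv_cancel]
          rfl, by
          apply Subtype.ext
          show ((((g⁻¹ : φ.ker) : subalgebraNormalizer K) : GL ι F) : Matrix ι ι F) *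
            ((g : subalgebraNormalizer K) : GL ι F) = 1
          rw [← Units.val_mul, ← Subgroup.coe_mul, ← Subgroup.coe_mul, inv_mul_cancel]
          rfl⟩
        map_one' := by
          apply Units.ext
          apply Subtype.ext
          rfl
        map_mul' := fun a b => by
          apply Units.ext
          apply Subtype.ext
          rfl }
    have hinj : Function.Injective ψ := by
      intro a b hab
      apply Subtype.ext
      apply Subtype.ext
      apply Units.ext
      have h1 := congrArg Units.val hab
      exact congrArg Subtype.val h1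
    have h1 : Nat.card φ.ker ∣ Nat.card Kˣ := Subgroup.card_dvd_of_injective ψ hinj
    have h2 : Nat.card Kˣ = Nat.card F ^ Fintype.card ι - 1 := by
      rw [Nat.card_units, Module.natCard_eq_pow_finrank (K := F), hK.finrank_eq]
    rwa [h2] at h1
  have hran : Nat.card φ.range ∣ Fintype.card ι := by
    have h1 : Nat.card (K ≃ₐ[F] K) = Fintype.card ι := by
      rw [IsGalois.card_aut_eq_finrank, hK.finrank_eq]
    rw [← h1]
    exact Subgroup.card_subgroup_dvd_card _
  have h1 := Subgroup.card_eq_card_quotient_mul_card_subgroup φ.ker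
  have h2 : Nat.card (subalgebraNormalizer K ⧸ φ.ker) = Nat.card φ.range :=
    Nat.card_congr (QuotientGroup.quotientKerEquivRange φ).toEquiv
  rw [h1, h2]
  exact Nat.mul_dvd_mul hran hker

section decomp

variable {t : ℕ} {D : Fin t → Submodule F (ι → F)}

theorem inj_of (hD : IsMDecomposition 1 D) : Function.Injective D := by
  intro i j hij
  by_contra hne
  have h1 := hD.indep.pairwiseDisjoint hne
  have h2 : D i = ⊥ := by
    have h3 : Disjoint (D i) (D j) := h1
    rw [← hij, disjoint_self] at h3
    exact h3
  have h3 := hD.finrank_eq i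
  rw [h2, finrank_bot] at h3
  omega

/-- the permutation of the lines -/
noncomputable def perm (hD : IsMDecomposition 1 D) : decompositionStabilizer D →* Equiv.Perm (Fin t) where
  toFun g := g.2.choose
  map_one' := by
    apply Equiv.ext
    intro i
    apply inj_of hD
    rw [← (1 : decompositionStabilizer D).2.choose_spec i]
    simp
  map_mul' a b := by
    apply Equiv.ext
    intro i
    apply inj_of hD
    rw [← (a * b).2.choose_spec i, Equiv.Perm.mul_apply, ← a.2.choose_spec, ← b.2.choose_spec, ← Submodule.map_comp,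
      ← Matrix.toLin'_mul]
    rfl

theorem perm_spec (hD : IsMDecomposition 1 D) (g : decompositionStabilizer D) (i : Fin t) :
    (D i).map (Matrix.toLin' ((g : GL ι F) : Matrix ι ι F)) = D (perm hD g i) := g.2.choose_spec i

theorem eq_one_of_ker (hD : IsMDecomposition 1 D) {r : ℕ} (hr : r.Prime) (hq : ¬ r ∣ Nat.card F - 1)
    {g : decompositionStabilizer D} (hg : perm hD g = 1) (hgr : g ^ r = 1) : g = 1 := by
  have hgr' : (g : GL ι F) ^ r = 1 := by
    rw [← Subgroup.coe_pow, hgr]; rfl
  have h1 : ∀ i, ∀ v ∈ D i, ((g : GL ι F) : Matrix ι ι F) *ᵥ v = v := by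
    intro i v hv
    by_cases hv0 : v = 0
    · rw [hv0, Matrix.mulVec_zero]
    have h2 := perm_spec hD g i
    rw [hg, Equiv.Perm.one_apply] at h2
    have h3 : ((g : GL ι F) : Matrix ι ι F) *ᵥ v ∈ D i := by
      rw [← h2]
      exact ⟨v, hv, by simp⟩
    obtain ⟨c, hc⟩ := (finrank_eq_one_iff_of_nonzero' (⟨v, hv⟩ : D i) (fun h => hv0 (congrArg Subtype.val h))).1
      (hD.finrank_eq i) ⟨_, h3⟩
    have hc' : c • v = ((g : GL ι F) : Matrix ι ι F) *ᵥ v := congrArg Subtype.val hc
    have hpow : ∀ k : ℕ, (((g : GL ι F) ^ k : GL ι F) : Matrix ι ι F) *ᵥ v = c ^ k • v := by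
      intro k
      induction k with
      | zero => simp
      | succ k ih =>
        rw [pow_succ, Units.val_mul, ← Matrix.mulVec_mulVec, ← hc', Matrix.mulVec_smul, ih, smul_smul, pow_succ, mul_comm]
    have h4 := hpow r
    rw [hgr', Units.val_one, Matrix.one_mulVec] at h4
    have h5 : c ^ r = 1 := by
      by_contra hcon
      apply hv0
      have h6 : (c ^ r - 1) • v = 0 := by rw [sub_smul, one_smul, ← h4, sub_self]
      exact (smul_eq_zero.1 h6).resolve_left (sub_ne_zero.2 hcon)
    have hc0 : c ≠ 0 := by
      rintro rfl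
      rw [zero_pow hr.ne_zero] at h5
      exact zero_ne_one h5
    have h7 : c = 1 := by
      have h8 : (Units.mk0 c hc0) ^ r = 1 := Units.ext (by simpa using h5)
      have h9 : (Units.mk0 c hc0) ^ (Nat.card F - 1) = 1 := by
        rw [← Nat.card_units]
        exact pow_card_eq_one'
      have h10 : (Nat.Coprime r (Nat.card F - 1)) := (Nat.Prime.coprime_iff_not_dvd hr).2 hq
      have h11 : Units.mk0 c hc0 = 1 := by
        have := pow_gcd_eq_one.2 ⟨h8, h9⟩
        rwa [h10, pow_one] at this
      exact congrArg Units.val h11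
    rw [← hc', h7, one_smul]
  apply Subtype.ext
  apply Units.ext
  have h2 : (LinearMap.ker (Matrix.toLin' ((g : GL ι F) : Matrix ι ι F) - 1)) = ⊤ := by
    rw [eq_top_iff, ← hD.iSup_eq_top]
    refine iSup_le fun i v hv => ?_
    rw [LinearMap.mem_ker, LinearMap.sub_apply, Matrix.toLin'_apply, h1 i v hv]
    exact sub_self v
  have h3 : Matrix.toLin' ((g : GL ι F) : Matrix ι ι F) = Matrix.toLin' (1 : Matrix ι ι F) := by
    rw [Matrix.toLin'_one]
    exact sub_eq_zero.1 (LinearMap.ker_eq_top.1 h2)
  exact Matrix.toLin'.injective h3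

/-- a group permuting `t` lines -/
theorem decomp_dvd (hD : IsMDecomposition 1 D) {H : Subgroup (GL ι F)} (hH : H ≤ decompositionStabilizer D) {r a : ℕ}
    (hr : r.Prime) (hq : ¬ r ∣ Nat.card F - 1) (h : r ^ a ∣ Nat.card H) : r ^ a ∣ t.factorial := by
  have hfin : Finite (GL ι F) := inferInstance
  have h1 : r ^ a ∣ Nat.card (decompositionStabilizer D) := h.trans (Subgroup.card_dvd_of_le hH)
  have h2 := Subgroup.card_eq_card_quotient_mul_card_subgroup (perm hD).ker
  have h3 : Nat.card (decompositionStabilizer D ⧸ (perm hD).ker) = Nat.card (perm hD).range :=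
    Nat.card_congr (QuotientGroup.quotientKerEquivRange (perm hD)).toEquiv
  have h4 : ¬ r ∣ Nat.card (perm hD).ker := by
    intro h5
    have := Fact.mk hr
    obtain ⟨g, hg⟩ := exists_prime_orderOf_dvd_card' r h5
    have h6 : (g : decompositionStabilizer D) = 1 := eq_one_of_ker hD hr hq g.2 (by
      rw [← Subgroup.coe_pow, ← hg, pow_orderOf_eq_one]; rfl)
    have h7 : g = 1 := Subtype.ext h6
    rw [h7, orderOf_one] at hg
    exact hr.one_lt.ne hg
  rw [h2, h3] at h1
  have h5 : Nat.Coprime (r ^ a) (Nat.card (perm hD).ker) := Nat.Coprime.pow_left a ((Nat.Prime.coprime_iff_not_dvd hr).2 h4)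
  have h6 := h5.dvd_of_dvd_mul_right h1
  have h7 : Nat.card (Equiv.Perm (Fin t)) = t.factorial := by
    rw [Nat.card_eq_fintype_card, Fintype.card_perm, Fintype.card_fin]
  rw [← h7]
  exact h6.trans (Subgroup.card_subgroup_dvd_card _)

end decomp

end Cfsg.Agent.H856.Om7
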