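import Cfsg.Agent.H856.Om7.Geo

/-!
# Irreducible groups of isometries in dimension 7 with a large primitive prime power of order 6 (helper856)
-/

set_option autoImplicit false
set_option linter.unusedSectionVars false

namespace Cfsg.Agent.H856.Om7

open Module QuadraticMap Cfsg.Geo Matrix Cfsg.Agent.H884.El Cfsg.Agent.LieClassical.OrthCore
open scoped MatrixGroups

universe u

/-- the prime powers `r ^ a ∣ N` with `r ≡ 1` modulo 6 are at most 13 -/
def Small (N : ℕ) : Prop := ∀ r a : ℕ, r.Prime → 6 ∣ r - 1 → r ^ a ∣ N → r ^ a ≤ 13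

theorem small_of {N k : ℕ} (h1 : N ∣ 6227020800 ^ k) (h49 : ¬ 49 ∣ N) (h169 : ¬ 169 ∣ N) : Small N := by
  intro r a hr h6 hd
  rcases Nat.eq_zero_or_pos a with rfl | ha
  · norm_num
  have h2 : r ∣ 6227020800 := hr.dvd_of_dvd_pow (((dvd_pow_self r (by omega)).trans hd).trans h1)
  have h3 : r ≤ 13 := (hr.dvd_factorial (n := 13)).1 (by
    rw [show (13 : ℕ).factorial = 6227020800 by decide]; exact h2)
  have h4 := hr.two_le
  have h5 : r = 7 ∨ r = 13 := by omega
  have h6 : a = 1 := by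
    by_contra hcon
    have h7 : r ^ 2 ∣ N := (pow_dvd_pow r (by omega)).trans hd
    rcases h5 with rfl | rfl
    · exact h49 h7
    · exact h169 h7
  rw [h6, pow_one]
  omega

variable {ι : Type} [Fintype ι] [DecidableEq ι] {F : Type u} [Field F] [Fintype F] {Q : QuadraticForm F (ι → F)}
  {H : Subgroup (GL ι F)}

theorem six_dvd {q r : ℕ} (h : PP q 6 r) : 6 ∣ r - 1 := by
  have := Fact.mk h.prime
  have h1 := ZMod.orderOf_dvd_card_sub_one (p := r) (a := (q : ZMod r)) (by
    intro h0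
    have h2 := h.ord
    rw [h0] at h2
    have h3 : orderOf (0 : ZMod r) = 0 := by
      rw [orderOf_eq_zero_iff']
      intro n hn
      rw [zero_pow hn.ne']
      exact zero_ne_one
    omega)
  rwa [h.ord] at h1

theorem to_residual (hn : Fintype.card ι = 7) (hQ : Nondeg Q) (hH : H ≤ Cfsg.isometryGroup F (⇑Q))
    (hsc : ∀ g ∈ H, g ∈ scalars ι F → g = 1) (hirr : ActsIrreducibly (matrixSet H)) {p f r a : ℕ} (hp : p.Prime)
    (hf : 1 ≤ f) (hpf : Nat.card F = p ^ f) (hr : PP p (f * 6) r) (hb : 13 < r ^ a) (hd : r ^ a ∣ Nat.card H) :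
    InOrthogonalResidualClass H := by
  have hne : Nonempty ι := Fintype.card_pos_iff.1 (by omega)
  have hrq : PP (Nat.card F) 6 r := by rw [hpf]; exact hr.of_pow hf
  have hq := one_lt_q F
  have h6 := six_dvd hrq
  have ha : a ≠ 0 := by
    rintro rfl
    norm_num at hb
  have h0 : r ∣ Nat.card H := (dvd_pow_self r ha).trans hd
  have hd6 : Fintype.card ι < 2 * 6 := by omega
  have hr7 : ∀ i : ℕ, ¬ 6 ∣ i → ¬ r ∣ Nat.card F ^ i - 1 := fun i hi h => hi ((hrq.dvd_iff hq.le i).1 h)
  rcases Cfsg.Agent.H925.orth_irreducible_fine (by omega) (Cfsg.Agent.H884.OddForm.isNondegenerate_of_nondeg Q hQ) hH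
      hirr with
    ⟨t, k, D, htk, hD, hHD, -⟩ | ⟨k, D, hk, hD, -, hHD⟩ | ⟨s, K, hs, hsn, hK, -, hHK⟩ |
    ⟨n₁, n₂, e, P, -, -, -, h1, h2, h12, -, -, -, -, hHT⟩ | ⟨F₁, s, B, -, -, hs, hcard, -, -, hHF⟩ |
    ⟨s, m, R, hRH, -, hHR, habs, hR, -, hm, hsm, hZ, ht, -⟩ | ⟨k, t, e, P, E, hkt, hW⟩ | hS
  · -- (C2a)
    exfalso
    have h2t := hD.decomp.decomp.two_le
    have ht7 : t ∣ 7 := ⟨k, by omega⟩
    have ht : t = 7 := by
      rcases (Nat.dvd_prime (by norm_num)).1 ht7 with h | h <;> omega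
    have hk1 : k = 1 := by
      subst ht
      omega
    subst ht hk1
    have h3 := decomp_dvd hD.decomp.decomp hHD hrq.prime (by simpa using hr7 1 (by decide)) hd
    have h4 : Small 5040 := small_of (k := 1) (by norm_num) (by norm_num) (by norm_num)
    have h5 := h4 r a hrq.prime h6 (by rw [show (5040 : ℕ) = (7 : ℕ).factorial by decide]; exact h3)
    omega
  · -- (C2b)
    omega
  · -- (C3)
    exfalso
    have hs7 : s = 7 := by
      rw [hn] at hsn
      rcases (Nat.dvd_prime (by norm_num)).1 hsn with h | h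
      · exact absurd h hs.one_lt.ne'
      · exact h
    subst hs7
    rw [← hn] at hK
    have h3 := (hd.trans (Subgroup.card_dvd_of_le hHK)).trans (card_norm_dvd hK)
    rw [hn] at h3
    have h4 : Nat.Coprime (r ^ a) (Nat.card F ^ 7 - 1) :=
      Nat.Coprime.pow_left a ((Nat.Prime.coprime_iff_not_dvd hrq.prime).2 (hr7 7 (by decide)))
    have h5 := Nat.le_of_dvd (by norm_num) (h4.dvd_of_dvd_mul_right h3)
    omega
  · exact absurd (kill_tensor e P hHT h1 h2 h12 hrq hd6 h0) id
  · exact absurd (kill_subfield hHF hs hcard hp hpf hr hd6 (by omega) h0) id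
  · -- (C6)
    exfalso
    have hs7 : s = 7 := by
      have h3 : s ∣ 7 := by rw [← hn, hsm]; exact dvd_pow_self s (by omega)
      rcases (Nat.dvd_prime (by norm_num)).1 h3 with h | h
      · exact absurd h hR.prime.one_lt.ne'
      · exact h
    have hc : Nat.card (Subgroup.center R) = 7 := by
      rcases ht with h | h | h
      · rw [← hs7]; exact h.2.1
      · omega
      · omega
    have hb : Subgroup.center R = ⊥ := by
      rw [hZ, Subgroup.eq_bot_iff_forall]
      intro x hx
      exact Subtype.ext (hsc x (hRH x.2) hx)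
    rw [hb, Subgroup.card_bot] at hc
    omega
  · exact absurd (kill_wreath hW hkt hrq hd6 h0) id
  · exact hS

end Cfsg.Agent.H856.Om7
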